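import Cfsg.Agent.H681.IP.Row
import Cfsg.Agent.J2Type.CStruct
import Cfsg.Agent.J3Type.OneClass

/-!
# S4933: `Row 2 S` for a group with an involution of centralizer `2^{1+4}_- : A₅` (helper266)

`row_two_of_model` : `Q = 2^{1+4}_-` contains commuting nonabelian pairs `(v₀, v₁)`, `(v₂ v₃, v₂ v₄)`, and
`[[v₀, c], v₀] = z` for an element `c` over the even permutation `(0 1)(2 3)`.
-/

set_option autoImplicit false

namespace Cfsg.Agent.H266.HT.JRow

open Cfsg Subgroup Cfsg.Agent.H316.HT Cfsg.Agent.J2Type.Model Cfsg.Agent.J2Type.CStruct Cfsg.Agent.J3Type.OneClass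
open scoped commutatorElement

universe u

/-- the permutation -/
def sHom : SP →* Equiv.Perm (Fin 5) where
  toFun g := g.σ
  map_one' := rfl
  map_mul' _ _ := rfl

/-- the involution `(0 1)(2 3)` -/
def τ : Equiv.Perm (Fin 5) := Equiv.swap 0 1 * Equiv.swap 2 3

theorem tau_sq : τ * τ = 1 := by decide +kernel
theorem tau_sign : Equiv.Perm.sign τ = 1 := by decide +kernel
theorem tau_zero : τ 0 = 1 := by decide +kernel

variable {C : Type*} [Group C] {Q : Subgroup C} {z : C} {v : Fin 5 → C} {ρ : C →* SP}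

/-- the preimage of `⟨τ⟩` -/
def XX (ρ : C →* SP) : Subgroup C := (zpowers τ).comap (sHom.comp ρ)

theorem mem_XX {x : C} (hx : x ∈ XX ρ) : (ρ x).σ * (ρ x).σ = 1 := by
  obtain ⟨k, hk⟩ := hx
  have hk' : τ ^ k = (ρ x).σ := hk
  rw [← hk', ← zpow_add, ← two_mul, zpow_mul, zpow_two, tau_sq, one_zpow]

theorem pow_four (M : IsModel Q z v ρ) {q : C} (hq : q ∈ Q) : (q * q) * (q * q) = 1 := by
  rcases M.cover q hq with ⟨a, rfl⟩ | ⟨a, i, rfl⟩ | ⟨a, i, j, hij, rfl⟩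
  · rw [zp_sq M, one_mul]
  · rw [zv_sq M, one_mul]
  · rw [sq_zp_mul M, vv_sq M hij.ne, M.z_sq]

theorem isPGroup_XX (M : IsModel Q z v ρ) : IsPGroup 2 (XX ρ) := by
  rintro ⟨x, hx⟩
  refine ⟨3, Subtype.ext ?_⟩
  have h1 : x * x ∈ Q := (M.mem_Q _).2 (by rw [map_mul, mul_σ]; exact mem_XX hx)
  have h2 := pow_four M h1
  show x ^ 2 ^ 3 = 1
  rw [← h2]
  rw [show 2 ^ 3 = 8 by norm_num]
  simp only [pow_succ, pow_zero, one_mul, mul_assoc]

theorem v_mem_XX (M : IsModel Q z v ρ) (i : Fin 5) : v i ∈ XX ρ := by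
  show (ρ (v i)).σ ∈ zpowers τ
  rw [(M.mem_Q _).1 (M.v_mem i)]
  exact one_mem _

/-- two products commute -/
theorem v_comm_vv (M : IsModel Q z v ρ) {i j k : Fin 5} (hij : i ≠ j) (hik : i ≠ k) :
    v i * (v j * v k) = v j * v k * v i := by
  calc v i * (v j * v k) = v i * v j * v k := by group
    _ = z * (v j * v i) * v k := by rw [M.v_anti i j hij]
    _ = z * v j * (v i * v k) := by group
    _ = z * v j * (z * (v k * v i)) := by rw [M.v_anti i k hik]
    _ = z * (v j * z) * (v k * v i) := by group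
    _ = z * (z * v j) * (v k * v i) := by rw [M.z_comm]
    _ = (z * z) * (v j * v k * v i) := by group
    _ = v j * v k * v i := by rw [M.z_sq, one_mul]

theorem row_two_of_isModel (hIP : H681.IP.IPTwo) {S : Type u} [Group S] {t : S}
    {Q : Subgroup (centralizer ({t} : Set S))} {v : Fin 5 → centralizer ({t} : Set S)}
    {ρ : centralizer ({t} : Set S) →* SP} (M : IsModel Q (zc t) v ρ) : Row 2 S := by
  obtain ⟨c, hc⟩ := (M.range ⟨τ, fun _ => 0⟩).2 ⟨tau_sign, by simp⟩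
  have hcX : c ∈ XX ρ := by
    show (ρ c).σ ∈ zpowers τ
    rw [hc]
    exact mem_zpowers τ
  have hf : Function.Injective ((centralizer ({t} : Set S)).subtype.comp (XX ρ).subtype) :=
    (subtype_injective _).comp (subtype_injective _)
  have hconj : c * v 0 * c⁻¹ = v 1 := by
    rw [M.conj, hc]
    show zp _ 0 * v (τ 0) = v 1
    rw [zp_zero, one_mul, tau_zero]
  have hv1 : (v 1)⁻¹ = v 1 := inv_eq_of_mul_eq_one_left (M.v_sq 1)
  have hv0 : (v 0)⁻¹ = v 0 := inv_eq_of_mul_eq_one_left (M.v_sq 0)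
  refine H681.IP.row_two_hom hIP _ hf (isPGroup_XX M) (x := ⟨v 0, v_mem_XX M 0⟩) (y := ⟨c, hcX⟩)
    (z := ⟨v 0, v_mem_XX M 0⟩) ?_ _ hf (isPGroup_XX M) (x₁ := ⟨v 0, v_mem_XX M 0⟩) (y₁ := ⟨v 1, v_mem_XX M 1⟩)
    (x₂ := ⟨v 2 * v 3, mul_mem (v_mem_XX M 2) (v_mem_XX M 3)⟩)
    (y₂ := ⟨v 2 * v 4, mul_mem (v_mem_XX M 2) (v_mem_XX M 4)⟩) ?_ ?_ ?_ ?_ ?_ ?_
  · intro h
    have h1 : ⁅⁅v 0, c⁆, v 0⁆ = 1 := congrArg Subtype.val h
    have h2 : ⁅v 0, c⁆ = v 0 * v 1 := by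
      rw [commutatorElement_def]
      calc v 0 * c * (v 0)⁻¹ * c⁻¹ = v 0 * (c * v 0 * c⁻¹)⁻¹ := by group
        _ = v 0 * v 1 := by rw [hconj, hv1]
    rw [h2, commutatorElement_def, mul_inv_rev, hv0, hv1] at h1
    apply M.z_ne
    rw [← vv_sq M (show (0 : Fin 5) ≠ 1 by decide), ← h1]
    calc v 0 * v 1 * (v 0 * v 1) = v 0 * v 1 * v 0 * (v 1) * 1 := by group
      _ = v 0 * v 1 * v 0 * (v 1) * (v 0 * v 0) := by rw [M.v_sq]
      _ = v 0 * v 1 * v 0 * (v 1 * v 0) * v 0 := by group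
  · intro h
    have h1 : v 0 * v 1 = v 1 * v 0 := congrArg Subtype.val h
    exact absurd ((v_comm_iff M 0 1).1 h1) (by decide)
  · intro h
    have h1 : v 2 * v 3 * (v 2 * v 4) = v 2 * v 4 * (v 2 * v 3) := congrArg Subtype.val h
    have h2 : v 2 * v 3 * (v 2 * v 4) = zc t * (v 3 * v 4) := by
      calc v 2 * v 3 * (v 2 * v 4) = (v 2 * v 3) * v 2 * v 4 := by group
        _ = (zc t * (v 3 * v 2)) * v 2 * v 4 := by rw [M.v_anti 2 3 (by decide)]
        _ = zc t * (v 3 * (v 2 * v 2) * v 4) := by group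
        _ = zc t * (v 3 * v 4) := by rw [M.v_sq, mul_one]
    have h3 : v 2 * v 4 * (v 2 * v 3) = zc t * (v 4 * v 3) := by
      calc v 2 * v 4 * (v 2 * v 3) = (v 2 * v 4) * v 2 * v 3 := by group
        _ = (zc t * (v 4 * v 2)) * v 2 * v 3 := by rw [M.v_anti 2 4 (by decide)]
        _ = zc t * (v 4 * (v 2 * v 2) * v 3) := by group
        _ = zc t * (v 4 * v 3) := by rw [M.v_sq, mul_one]
    rw [h2, h3] at h1
    exact absurd ((v_comm_iff M 3 4).1 (mul_left_cancel h1)) (by decide)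
  · exact Subtype.ext (v_comm_vv M (by decide) (by decide))
  · exact Subtype.ext (v_comm_vv M (by decide) (by decide))
  · exact Subtype.ext (v_comm_vv M (by decide) (by decide))
  · exact Subtype.ext (v_comm_vv M (by decide) (by decide))

theorem row_two_of_model (hIP : H681.IP.IPTwo) {S : Type u} [Group S] {t : S} (h : HasModel t) : Row 2 S := by
  obtain ⟨-, -, Q, v, ρ, M⟩ := h
  exact row_two_of_isModel hIP M

end Cfsg.Agent.H266.HT.JRow
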