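import Cfsg.Agent.H266.HT.JRow
import Cfsg.Agent.H898.J3Cent
import Cfsg.Agent.KFacts.J2.Basic

/-!
# S4933, boxes (J3, 2) and (J2, 2) (helper266)
-/

set_option autoImplicit false

namespace Cfsg.Agent.H266.HT.JTwoRows

open Cfsg Subgroup Cfsg.Agent.H316.HT Cfsg.Agent.J3Type.OneClass

universe u

/-- a row passes to isomorphic groups -/
theorem row_congr {p : ℕ} {S T : Type*} [Group S] [Group T] (e : S ≃* T) (h : Row p T) : Row p S := by
  intro A _ _ N _ ⟨f⟩ hc M hM P a ha hcd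
  exact h A N ⟨f.trans e⟩ hc M hM P a ha hcd

/-- **Box (J3, 2).** -/
theorem row2_j3 (hIP : H681.IP.IPTwo) {S : Type u} [Group S] (h : Spor.IsoJ3 S) : Row 2 S := by
  obtain ⟨-, hc, hM⟩ := Cfsg.Agent.H898.J3Cent.base h
  have : Finite S := Nat.finite_of_card_ne_zero (by rw [hc]; norm_num)
  have : Fact (Nat.Prime 2) := ⟨Nat.prime_two⟩
  obtain ⟨t, ht⟩ := exists_prime_orderOf_dvd_card' (G := S) 2 (by rw [hc]; norm_num)
  exact JRow.row_two_of_model hIP (hM t ht)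

/-- **Box (J2, 2).** -/
theorem row2_j2 (hIP : H681.IP.IPTwo) {S : Type u} [Group S] (h : Spor.IsoJ2 S) : Row 2 S := by
  obtain ⟨e⟩ := h
  refine row_congr e ?_
  obtain ⟨t, u, Q, v, ρ, F, M⟩ := Cfsg.Agent.KFacts.J2.Basic.exists_dat
  exact JRow.row_two_of_isModel hIP M

end Cfsg.Agent.H266.HT.JTwoRows
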