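import Cfsg.Agent.H681.IP.Row
import Cfsg.Agent.H483.HT.V1
import Cfsg.Agent.H468.RowTits

/-!
# S4933, box (Tits, 2) (helper266)

`[[x₅₁₃, x₈₀], [x₅₁₃, x₈₄₄₈]] = z ≠ 1` in the Sylow 2-subgroup `UT ⊓ TT`.
-/

set_option autoImplicit false
set_option maxRecDepth 100000

namespace Cfsg.Agent.H266.HT.TitsTwo

open Cfsg Subgroup Cfsg.Agent.H316.HT Cfsg.Agent.TitsK
open scoped commutatorElement

universe u v

/-- inside a subgroup -/
theorem nv_of {G : Type u} [Group G] (T U : Subgroup G) (hU : IsPGroup 2 U) {a b c d : G} (haT : a ∈ T) (hbT : b ∈ T)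
    (hcT : c ∈ T) (hdT : d ∈ T) (haU : a ∈ U) (hbU : b ∈ U) (hcU : c ∈ U) (hdU : d ∈ U)
    (h : ⁅⁅a, b⁆, ⁅c, d⁆⁆ ≠ 1) : Cfsg.Agent.H483.HT.NV 2 ↥T :=
  ⟨U.subgroupOf T, hU.comap_of_injective T.subtype T.subtype_injective, ⟨a, haT⟩, haU, ⟨b, hbT⟩, hbU, ⟨c, hcT⟩, hcU,
    ⟨d, hdT⟩, hdU, fun h1 => h (congrArg Subtype.val h1)⟩

theorem row_of_nv {S : Type u} [Group S] (h : Cfsg.Agent.H483.HT.NV 2 S) : Row 2 S := by
  obtain ⟨Q, hQ, x, hx, y, hy, z, hz, w, hw, hne⟩ := h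
  exact H681.IP.row_of_derived_mem Nat.prime_two Q hQ hx hy hz hw
    fun h => hne (commutatorElement_eq_one_iff_commute.2 h)

theorem comm_ec (a b : ℕ) : ⁅FourTwo.Classes.ec a, FourTwo.Classes.ec b⁆ = FourTwo.Classes.ec (commU a b) := by
  rw [ec_commU, commutatorElement_def, mul_assoc (FourTwo.Classes.ec a * FourTwo.Classes.ec b)]

theorem comm_eq : ⁅⁅FourTwo.Classes.ec 513, FourTwo.Classes.ec 80⁆, ⁅FourTwo.Classes.ec 513, FourTwo.Classes.ec 8448⁆⁆ = z := by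
  rw [comm_ec, comm_ec, comm_ec]
  have h : commU (commU 513 80) (commU 513 8448) = 9437184 := by decide +kernel
  rw [h]
  rfl

theorem nv_tt : Cfsg.Agent.H483.HT.NV 2 ↥TT :=
  nv_of TT UT isPGroup_UT t513 t80 t513 t8448 ec513 ec80 ec513 ec8448 (by rw [comm_eq]; exact z_ne)

theorem nv_aux {G : Type v} [Group G] (T : Subgroup G) (hT : Cfsg.Agent.H483.HT.NV 2 ↥T) {S : Type u} [Group S]
    (h : Nonempty (S ≃* ↥T)) : Cfsg.Agent.H483.HT.NV 2 S := by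
  obtain ⟨e⟩ := h
  exact hT.congr e.symm

theorem nv_tits {S : Type u} [Group S] (h : Lie.IsoTits S) : Cfsg.Agent.H483.HT.NV 2 S :=
  nv_aux TT nv_tt (Cfsg.Agent.CpAutTits.Row.exists_equiv h)

/-- **Box (Tits, 2).** -/
theorem row2_tits {S : Type u} [Group S] (h : Lie.IsoTits S) : Row 2 S := row_of_nv (nv_tits h)

end Cfsg.Agent.H266.HT.TitsTwo
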